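import Cfsg.Agent.Lib.PGroup.TwoCyclic
import Cfsg.Agent.Lib.Core.Fitting
import Cfsg.Agent.Lib.Core.CoprimeAbelian

/-! Nilpotent groups all of whose abelian normal subgroups are cyclic (for `Lib/HK/EVS`). -/

set_option autoImplicit false

namespace H51.HK

open Subgroup Cfsg

section key
variable {G : Type*} [Group G] [Finite G]

/-- an abelian group normalised by a group that is transitive on `E#` is semiregular on `E#` -/
theorem evs_key {E B A : Subgroup G} (hB : IsMulCommutative B)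
    (hBE : ∀ g ∈ B, ∀ v ∈ E, g * v * g⁻¹ ∈ E)
    (hAB : ∀ u ∈ A, ∀ g ∈ B, u * g * u⁻¹ ∈ B)
    (htr : ∀ v ∈ E, ∀ w ∈ E, v ≠ 1 → w ≠ 1 → ∃ u ∈ A, u * v * u⁻¹ = w)
    (hf : ∀ g ∈ B, (∀ v ∈ E, g * v = v * g) → g = 1)
    {g v : G} (hg : g ∈ B) (hv : v ∈ E) (hv1 : v ≠ 1) (h : g * v = v * g) : g = 1 := by
  have cB : ∀ x ∈ B, ∀ y ∈ B, x * y = y * x := fun x hx y hy =>
    congrArg Subtype.val (hB.is_comm.comm (⟨x, hx⟩ : B) ⟨y, hy⟩)
  set C : G → Subgroup G := fun v => B ⊓ centralizer {v} with hC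
  have mC : ∀ v x, x ∈ C v ↔ x ∈ B ∧ x * v = v * x := fun v x => by
    simp only [hC, mem_inf, mem_centralizer_singleton_iff]
  have hcard : ∀ v ∈ E, ∀ w ∈ E, v ≠ 1 → w ≠ 1 → Nat.card (C v) ≤ Nat.card (C w) := by
    intro v hv w hw v1 w1
    obtain ⟨u, hu, rfl⟩ := htr v hv w hw v1 w1
    refine Nat.card_le_card_of_injective
      (fun x => (⟨u * x.1 * u⁻¹, (mC _ _).2 ⟨hAB u hu _ ((mC _ _).1 x.2).1, ?_⟩⟩ : C (u * v * u⁻¹))) ?_
    · have := ((mC _ _).1 x.2).2
      calc u * x.1 * u⁻¹ * (u * v * u⁻¹) = u * (x.1 * v) * u⁻¹ := by group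
        _ = u * v * u⁻¹ * (u * x.1 * u⁻¹) := by rw [this]; group
    · intro x y e
      have e' : u * x.1 * u⁻¹ = u * y.1 * u⁻¹ := congrArg Subtype.val e
      exact Subtype.ext (mul_left_cancel (mul_right_cancel e'))
  have heq : ∀ v ∈ E, ∀ w ∈ E, v ≠ 1 → w ≠ 1 → C v ≤ C w → C v = C w := fun v hv w hw v1 w1 l =>
    eq_of_le_of_card_ge l (hcard w hw v hv w1 v1)
  by_contra g1
  obtain ⟨w, hw, hgw⟩ : ∃ w ∈ E, g * w ≠ w * g := by
    by_contra hc
    push Not at hc
    exact g1 (hf g hg hc)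
  have w1 : w ≠ 1 := by rintro rfl; simp at hgw
  have hne : C v ≠ C w := fun e => hgw ((mC _ _).1 (e ▸ (mC _ _).2 ⟨hg, h⟩)).2
  have vw1 : v * w ≠ 1 := fun e => hgw (by
    rw [eq_inv_of_mul_eq_one_right e]
    exact (show Commute g v from h).inv_right)
  have hle : C (v * w) ≤ C v ⊓ C w := by
    intro α hα
    obtain ⟨αB, e⟩ := (mC _ _).1 hα
    have e1 : v⁻¹ * (α * v * α⁻¹) = w * (α * w * α⁻¹)⁻¹ := by
      calc v⁻¹ * (α * v * α⁻¹) = v⁻¹ * (α * (v * w)) * w⁻¹ * α⁻¹ := by group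
        _ = w * (α * w * α⁻¹)⁻¹ := by rw [e]; group
    have xE : v⁻¹ * (α * v * α⁻¹) ∈ E := mul_mem (inv_mem hv) (hBE α αB v hv)
    have x1 : v⁻¹ * (α * v * α⁻¹) = 1 := by
      by_contra x1
      have l1 : C v ≤ C (v⁻¹ * (α * v * α⁻¹)) := fun β hβ => by
        obtain ⟨βB, eβ⟩ := (mC _ _).1 hβ
        have c1 : Commute β v := eβ
        have c2 : Commute β α := cB _ βB _ αB
        exact (mC _ _).2 ⟨βB, c1.inv_right.mul_right ((c2.mul_right c1).mul_right c2.inv_right)⟩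
      have l2 : C w ≤ C (v⁻¹ * (α * v * α⁻¹)) := fun β hβ => by
        obtain ⟨βB, eβ⟩ := (mC _ _).1 hβ
        have c1 : Commute β w := eβ
        have c2 : Commute β α := cB _ βB _ αB
        rw [e1]
        exact (mC _ _).2 ⟨βB, c1.mul_right ((c2.mul_right c1).mul_right c2.inv_right).inv_right⟩
      exact hne ((heq v hv _ xE hv1 x1 l1).trans (heq w hw _ xE w1 x1 l2).symm)
    refine ⟨(mC _ _).2 ⟨αB, ?_⟩, (mC _ _).2 ⟨αB, ?_⟩⟩
    · calc α * v = v * (v⁻¹ * (α * v * α⁻¹)) * α := by group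
        _ = v * α := by rw [x1, mul_one]
    · calc α * w = (w * (α * w * α⁻¹)⁻¹)⁻¹ * w * α := by group
        _ = w * α := by rw [← e1, x1, inv_one, one_mul]
  exact hne ((heq _ (mul_mem hv hw) v hv vw1 hv1 (hle.trans inf_le_left)).symm.trans
    (heq _ (mul_mem hv hw) w hw vw1 w1 (hle.trans inf_le_right)))

end key

section nil
variable {X : Type*} [Group X] [Finite X] [Group.IsNilpotent X]

theorem evs_dec (p : ℕ) [Fact p.Prime] (x : X) :
    ∃ y ∈ pCore p X, ∃ z : X, (∀ w ∈ pCore p X, w * z = z * w) ∧ x = y * z := by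
  have hx : x ∈ pCore p X ⊔ pPrimeCore p X := by
    rw [H1.pCore_sup_pPrimeCore_eq_top]; trivial
  have : (pPrimeCore p X).Normal := inferInstance
  obtain ⟨y, hy, z, hz, rfl⟩ := (mem_sup_of_normal_right).1 hx
  exact ⟨y, hy, z, fun w hw => mem_centralizer_iff.1 (H1.pPrimeCore_le_centralizer_pCore hz) w hw,
    rfl⟩

theorem evs_mem (p : ℕ) [Fact p.Prime] {x : X} {k : ℕ} (hx : orderOf x = p ^ k) :
    x ∈ pCore p X := by
  obtain ⟨P, hP⟩ := (IsPGroup.of_card (G := zpowers x)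
    (by rw [Nat.card_zpowers, hx])).exists_le_sylow
  rw [H1.pCore_eq_sylow_of_isNilpotent P]
  exact hP (mem_zpowers x)

theorem evs_nrm (p : ℕ) [Fact p.Prime] {B : Subgroup (pCore p X)} (hB : B.Normal) :
    (B.map (pCore p X).subtype).Normal := by
  constructor
  rintro _ ⟨n, hn, rfl⟩ x
  obtain ⟨y, hy, z, hz, rfl⟩ := evs_dec p x
  refine ⟨⟨y, hy⟩ * n * ⟨y, hy⟩⁻¹, hB.conj_mem n hn _, ?_⟩
  have := hz n n.2
  calc y * (n : X) * y⁻¹ = y * (n * z) * z⁻¹ * y⁻¹ := by group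
    _ = y * z * n * (y * z)⁻¹ := by rw [this]; group

theorem evs_exists_inv (he : Even (Nat.card X)) :
    ∃ z : X, z * z = 1 ∧ z ≠ 1 ∧ ∀ u, z * u = u * z := by
  obtain ⟨x, hx⟩ := exists_prime_orderOf_dvd_card' (G := X) 2 he.two_dvd
  have h1 : pCore 2 X ≠ ⊥ := fun e => by
    have := evs_mem 2 (k := 1) (by simpa using hx)
    rw [e, mem_bot] at this
    rw [this, orderOf_one] at hx
    omega
  obtain ⟨z, hz, hp⟩ := H2.exists_mem_prime_orderOf (H5.inf_center_ne_bot_of_nilpotent _ h1)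
  obtain ⟨k, hk⟩ := IsPGroup.iff_orderOf.1 (H1.isPGroup_pCore (p := 2) (G := X)) ⟨z, hz.1⟩
  rw [Subgroup.orderOf_mk] at hk
  have h2 : orderOf z = 2 :=
    (Nat.prime_dvd_prime_iff_eq hp Nat.prime_two).1 (hp.dvd_of_dvd_pow (dvd_of_eq hk))
  refine ⟨z, by rw [← pow_two, ← h2, pow_orderOf_eq_one], ?_, fun u => (mem_center_iff.1 hz.2 u).symm⟩
  rintro rfl
  rw [orderOf_one] at h2
  omega

theorem evs_struct (hn : ∀ B : Subgroup X, B.Normal → IsMulCommutative B → IsCyclic B) :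
    (∀ u : X, (orderOf u).Prime → ∃ B : Subgroup X, B.Normal ∧ IsMulCommutative B ∧ u ∈ B) ∨
      ∃ c : X, (centralizer {c}).index = 2 ∧ (∀ y : X, orderOf y = orderOf c → y ∈ zpowers c) ∧
        ∀ u ∈ centralizer {c}, (orderOf u).Prime →
          ∃ B : Subgroup X, B.Normal ∧ IsMulCommutative B ∧ u ∈ B := by
  have hn' : ∀ (p : ℕ) [Fact p.Prime], ∀ B : Subgroup (pCore p X), B.Normal →
      IsMulCommutative B → IsCyclic B := fun p _ B h1 h2 =>
    (B.equivMapOfInjective _ (pCore p X).subtype_injective).isCyclic.2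
      (hn _ (evs_nrm p h1) inferInstance)
  have cyc : ∀ (p : ℕ) [Fact p.Prime], IsCyclic (pCore p X) → ∀ u : X, orderOf u = p →
      ∃ B : Subgroup X, B.Normal ∧ IsMulCommutative B ∧ u ∈ B := fun p _ h u hu =>
    ⟨pCore p X, inferInstance, inferInstance, evs_mem p (k := 1) (by simpa using hu)⟩
  have odd : ∀ u : X, (orderOf u).Prime → orderOf u ≠ 2 →
      ∃ B : Subgroup X, B.Normal ∧ IsMulCommutative B ∧ u ∈ B := by
    intro u hp h2
    have : Fact (orderOf u).Prime := ⟨hp⟩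
    refine cyc _ ?_ u rfl
    by_contra hc
    obtain ⟨A, hA, hE, hcard⟩ := H5.exists_normal_elementary_sq h2 H1.isPGroup_pCore hc
    have h1 := hn' _ A hA hE.1
    have h2 : Nat.card A ∣ orderOf u := by
      rw [← h1.exponent_eq_card]
      exact Monoid.exponent_dvd_of_forall_pow_eq_one fun g => Subtype.ext (hE.2 g g.2)
    rw [hcard] at h2
    have := Nat.le_of_dvd hp.pos h2
    have := hp.two_le
    nlinarith
  obtain h | ⟨a, b, m, ha, hi, hb, h⟩ :=
    H5.exists_of_normal_abelian_cyclic (H1.isPGroup_pCore (p := 2) (G := X)) (hn' 2)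
  · refine Or.inl fun u hp => ?_
    by_cases h2 : orderOf u = 2
    · exact cyc 2 h u h2
    · exact odd u hp h2
  have hN : (zpowers a).Normal := normal_of_index_eq_two hi
  have hB : ∀ u : pCore 2 X, u ∈ zpowers a →
      ∃ B : Subgroup X, B.Normal ∧ IsMulCommutative B ∧ (u : X) ∈ B := fun u hu =>
    ⟨_, evs_nrm 2 hN, inferInstance, u, hu, rfl⟩
  have out : ∀ y : pCore 2 X, y ∉ zpowers a → ∃ i : ℤ, y = a ^ i * b := fun y hy => by
    obtain ⟨i, e⟩ := mem_zpowers_iff.1 ((mul_mem_iff_of_index_two hi (a := y) (b := b⁻¹)).2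
      (by simp [hy, hb]))
    exact ⟨i, by rw [e]; group⟩
  have sq : ∀ (i : ℤ) (k : pCore 2 X), Commute a k → b * a * b⁻¹ = a⁻¹ * k →
      (a ^ i * b) * (a ^ i * b) = k ^ i * (b * b) := fun i k hk e => by
    calc (a ^ i * b) * (a ^ i * b) = a ^ i * (b * a * b⁻¹) ^ i * (b * b) := by
          rw [conj_zpow]; group
      _ = k ^ i * (b * b) := by rw [e, hk.inv_left.mul_zpow]; group
  have main : ∀ k : pCore 2 X, 2 ≤ m → k * k = 1 → Commute a k → b * b = 1 →
      b * a * b⁻¹ = a⁻¹ * k →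
      ∃ c : X, (centralizer {c}).index = 2 ∧ (∀ y : X, orderOf y = orderOf c → y ∈ zpowers c) ∧
        ∀ u ∈ centralizer {c}, (orderOf u).Prime →
          ∃ B : Subgroup X, B.Normal ∧ IsMulCommutative B ∧ u ∈ B := by
    intro k hm k2 hk b2 e
    have n4 : ¬ 2 ^ (m + 1) ∣ 4 := fun hd => by
      have h1 := Nat.le_of_dvd (by norm_num) hd
      have h2 : 2 ^ 3 ≤ 2 ^ (m + 1) := Nat.pow_le_pow_right two_pos (by omega)
      omega
    have hC : ∀ y : pCore 2 X, y * a = a * y ↔ y ∈ zpowers a := fun y => by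
      refine ⟨fun c => ?_, fun hy => ?_⟩
      · by_contra hy
        obtain ⟨i, rfl⟩ := out y hy
        have c1 : b * a * b⁻¹ = a := by
          calc b * a * b⁻¹ = (a ^ i)⁻¹ * (a ^ i * b * a) * b⁻¹ := by group
            _ = a := by rw [c]; group
        rw [c1] at e
        have c2 : a * a = k := by
          calc a * a = a * (a⁻¹ * k) := by rw [← e]
            _ = k := by group
        refine n4 (ha ▸ orderOf_dvd_of_pow_eq_one ?_)
        calc a ^ 4 = (a * a) * (a * a) := by simp only [pow_succ, pow_zero, one_mul, mul_assoc]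
          _ = 1 := by rw [c2, k2]
      · obtain ⟨i, rfl⟩ := mem_zpowers_iff.1 hy
        exact (Commute.refl a).zpow_left i
    have hC' : ∀ y : pCore 2 X, (y : X) ∈ centralizer {(a : X)} ↔ y ∈ zpowers a := fun y => by
      rw [mem_centralizer_singleton_iff, ← hC, Subtype.ext_iff]; rfl
    refine ⟨a, index_eq_two_iff'.2 ⟨b, fun x => ?_⟩, fun y hy => ?_, fun u hu hp => ?_⟩
    · obtain ⟨y, hy, z, hz, rfl⟩ := evs_dec 2 x
      have zC : z ∈ centralizer {(a : X)} := mem_centralizer_singleton_iff.2 (hz _ a.2).symm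
      rw [← mul_assoc, mul_mem_cancel_right zC, mul_mem_cancel_right zC]
      have h1 := hC' (b * ⟨y, hy⟩)
      have h2 := hC' ⟨y, hy⟩
      rw [mul_mem_iff_of_index_two hi] at h1
      change (b : X) * y ∈ _ ↔ _ at h1
      change y ∈ _ ↔ _ at h2
      rw [h1, h2]
      simp only [hb, false_iff]
      by_cases hh : (⟨y, hy⟩ : pCore 2 X) ∈ zpowers a <;> simp [hh]
    · rw [Subgroup.orderOf_coe, ha] at hy
      have hy' := evs_mem 2 hy
      by_cases hz : (⟨y, hy'⟩ : pCore 2 X) ∈ zpowers a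
      · obtain ⟨i, e⟩ := mem_zpowers_iff.1 hz
        exact mem_zpowers_iff.2 ⟨i, congrArg Subtype.val e⟩
      · exfalso
        obtain ⟨i, e1⟩ := out _ hz
        refine n4 ?_
        rw [← hy, ← Subgroup.orderOf_mk y hy', e1]
        refine orderOf_dvd_of_pow_eq_one ?_
        calc (a ^ i * b) ^ 4 = ((a ^ i * b) * (a ^ i * b)) * ((a ^ i * b) * (a ^ i * b)) := by
              simp only [pow_succ, pow_zero, one_mul, mul_assoc]
          _ = 1 := by rw [sq i k hk e, b2, mul_one, ← (Commute.refl k).mul_zpow, k2, one_zpow]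
    · by_cases h2 : orderOf u = 2
      · have hu' := evs_mem 2 (k := 1) (x := u) (by simpa using h2)
        exact hB ⟨u, hu'⟩ ((hC' _).1 hu)
      · exact odd u hp h2
  rcases h with h | h | h
  · exact Or.inr (main 1 h.1 (one_mul 1) (Commute.one_right a) h.2.1 (by rw [mul_one, h.2.2]))
  · refine Or.inl fun u hp => ?_
    by_cases h2 : orderOf u = 2
    · have hu' := evs_mem 2 (k := 1) (x := u) (by simpa using h2)
      refine hB ⟨u, hu'⟩ ?_
      by_contra hz
      obtain ⟨i, e1⟩ := out _ hz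
      have e2 := sq i 1 (Commute.one_right a) (by rw [mul_one, h.2.2])
      rw [← e1, one_zpow, one_mul, h.2.1] at e2
      refine H5.half_ne_one ha (e2.symm.trans (Subtype.ext ?_))
      change u * u = 1
      rw [← pow_two, ← h2, pow_orderOf_eq_one]
    · exact odd u hp h2
  · exact Or.inr (main _ h.1 (H5.half_mul_self ha) ((Commute.refl a).pow_right _) h.2.1 h.2.2)

end nil

end H51.HK
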