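import Mathlib
import Cfsg.Agent.S1069
import Cfsg.Agent.S1075

/-! The group `²G₂(3)` is not simple. -/

set_option autoImplicit false

namespace H51.HK.Ree3

open Cfsg.Lie Matrix

variable {F F' : Type*} [Field F] [Field F']

theorem map_xMat (D : ChevalleyDatum) (φ : F →+* F') (r : Fin D.nroots) (t : F) :
    (D.xMat F r t).map φ = D.xMat F' r (φ t) := by
  ext row col
  rcases row with i | u <;> rcases col with j | s <;>
    simp only [ChevalleyDatum.xMat, map_apply, of_apply] <;> split_ifs <;>
    simp [map_list_sum, Function.comp_def]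

theorem map_x (D : ChevalleyDatum) (φ : F →+* F') (r : ℕ) (t : F) :
    (D.x F r t).map φ = D.x F' r (φ t) := by
  unfold ChevalleyDatum.x
  split_ifs
  · exact map_xMat D φ _ t
  · exact Matrix.map_one _ φ.map_zero φ.map_one

theorem map_word (D : ChevalleyDatum) (φ : F →+* F') (w : List (ℕ × F)) :
    (D.wordMat F w).map φ = D.wordMat F' (w.map fun p => (p.1, φ p.2)) := by
  induction w with
  | nil => exact Matrix.map_one _ φ.map_zero φ.map_one
  | cons p w ih =>
    simp only [ChevalleyDatum.wordMat, List.map_cons, List.prod_cons] at ih ⊢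
    rw [Matrix.map_mul, ih, map_x]

theorem map_mem (φ : F →+* F') (e : ℕ) {g : GL chevG2.Idx F} (hg : g ∈ twistedG2 F e) :
    GeneralLinearGroup.map φ g ∈ twistedG2 F' e := by
  have : twistedG2 F e ≤ (twistedG2 F' e).comap (GeneralLinearGroup.map φ) := by
    refine (Subgroup.closure_le _).2 ?_
    rintro g ⟨w, ⟨t, u, v, hw⟩, hg⟩
    refine Subgroup.subset_closure ⟨w.map fun p => (p.1, φ p.2), ⟨φ t, φ u, φ v, ?_⟩, ?_⟩
    · rcases hw with rfl | rfl
      · left; simp [reeWordU]
      · right; simp [reeWordV, reeWordU, ChevalleyDatum.negWord]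
    · rw [← map_word, ← hg]; rfl
  exact this hg

theorem not_simple {K : Type} [Field K] [Fintype K] (hK : Fintype.card K = 3 ^ (2 * 0 + 1)) :
    ¬ IsSimpleGroup (twistedG2 K (3 ^ 0)) := fun hs => by
  have : Fact (Nat.Prime 3) := ⟨Nat.prime_three⟩
  have : Fact (Nat.Prime 2) := ⟨Nat.prime_two⟩
  let φ : K ≃+* ZMod 3 := FiniteField.ringEquivOfCardEq (by rw [hK, ZMod.card]; rfl)
  let f : twistedG2 K (3 ^ 0) →* twistedG2 (ZMod 3) (3 ^ 0) :=
    ((GeneralLinearGroup.map (φ : K →+* ZMod 3)).comp (twistedG2 K (3 ^ 0)).subtype).codRestrict _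
      fun g => map_mem _ _ g.2
  have hf : Function.Injective f := fun a b h => Subtype.ext (Units.ext
    (Matrix.map_injective φ.injective (congrArg Units.val (congrArg Subtype.val h))))
  have c1 := Cfsg.Agent.S1069.result hK
  have c2 := Cfsg.Agent.S1069.result (K := ZMod 3) (m := 0) (ZMod.card 3)
  have : Finite (twistedG2 (ZMod 3) (3 ^ 0)) := Nat.finite_of_card_ne_zero (by rw [c2]; norm_num)
  have hb : Function.Bijective f := hf.bijective_of_nat_card_le (c2.trans c1.symm).le
  have hs' : IsSimpleGroup (twistedG2 (ZMod 3) (3 ^ 0)) :=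
    (MulEquiv.ofBijective f hb).symm.isSimpleGroup
  let _ := Fintype.ofFinite (GaloisField 2 3)
  have h8 : Nat.card (GaloisField 2 3) = 8 := GaloisField.card _ _ three_ne_zero
  have c3 : Nat.card (commutator (twistedG2 (ZMod 3) (3 ^ 0))) = 504 :=
    (Cfsg.Agent.S1075.result (L := GaloisField 2 3) (by rw [← Nat.card_eq_fintype_card, h8])).1
  rcases (inferInstance : (commutator (twistedG2 (ZMod 3) (3 ^ 0))).Normal).eq_bot_or_eq_top with
    h | h
  · rw [h, Subgroup.card_bot] at c3; omega
  · rw [h, Subgroup.card_top, c2] at c3; norm_num at c3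

end H51.HK.Ree3
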